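import Mathlib
import Cfsg.Agent.Lib.Helper65.S4415.ExtDefs

/-!
# S4415, sub-package [X-N] of [EXT]: the elements of `N` act as `h ↦ p h γ`, `p, γ ∈ Q8`.
-/

set_option autoImplicit false

namespace Cfsg.Agent.Lib.Helper59.S4415

open Cfsg.Agent.Lib.Helper78.S4415 Cfsg.Agent.Lib.Helper65.S4415

universe u v

theorem xn_qi_re : qi.re = 0 := rfl
theorem xn_qi_imI : qi.imI = 1 := rfl
theorem xn_qi_imJ : qi.imJ = 0 := rfl
theorem xn_qi_imK : qi.imK = 0 := rfl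
theorem xn_qj_re : qj.re = 0 := rfl
theorem xn_qj_imI : qj.imI = 0 := rfl
theorem xn_qj_imJ : qj.imJ = 1 := rfl
theorem xn_qj_imK : qj.imK = 0 := rfl
theorem xn_qk_re : qk.re = 0 := rfl
theorem xn_qk_imI : qk.imI = 0 := rfl
theorem xn_qk_imJ : qk.imJ = 0 := rfl
theorem xn_qk_imK : qk.imK = 1 := rfl
theorem xn_one_re : (1 : H).re = 1 := rfl
theorem xn_one_imI : (1 : H).imI = 0 := rfl
theorem xn_one_imJ : (1 : H).imJ = 0 := rfl
theorem xn_one_imK : (1 : H).imK = 0 := rfl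

theorem xn_qi_sq : qi * qi = (-1 : H) := by
  ext <;> simp [xn_qi_re, xn_qi_imI, xn_qi_imJ, xn_qi_imK, xn_one_re, xn_one_imI, xn_one_imJ,
    xn_one_imK]

theorem xn_qj_sq : qj * qj = (-1 : H) := by
  ext <;> simp [xn_qj_re, xn_qj_imI, xn_qj_imJ, xn_qj_imK, xn_one_re, xn_one_imI, xn_one_imJ,
    xn_one_imK]

theorem xn_qk_sq : (qi * qj) * qk = (-1 : H) := by
  ext <;> simp [xn_qi_re, xn_qi_imI, xn_qi_imJ, xn_qi_imK, xn_qj_re, xn_qj_imI, xn_qj_imJ,
    xn_qj_imK, xn_qk_re, xn_qk_imI, xn_qk_imJ, xn_qk_imK, xn_one_re, xn_one_imI, xn_one_imJ,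
    xn_one_imK]

theorem xn_lr_mul {G : Type u} [Group G] {V : Type v} [AddCommGroup V] [Module (ZMod 3) V]
    (ρ : Representation (ZMod 3) G V) (φ : V ≃ₗ[ZMod 3] H)
    {g g' : G} {α γ α' γ' : H} (h : LR ρ φ g α γ) (h' : LR ρ φ g' α' γ') :
    LR ρ φ (g * g') (α * α') (γ' * γ) := by
  intro v
  rw [map_mul, Module.End.mul_apply, h, h']
  simp only [mul_assoc]

theorem xn_lr_val {G : Type u} [Group G] {V : Type v} [AddCommGroup V] [Module (ZMod 3) V]
    (ρ : Representation (ZMod 3) G V) (φ : V ≃ₗ[ZMod 3] H) (z : G)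
    (hz : ∀ v : V, ρ z v = -v)
    {g : G} {c : H} (h : LR ρ φ g 1 c) (hg : g = 1 ∨ g = z) : c = 1 ∨ c = -1 := by
  have h1 := h (φ.symm 1)
  rw [LinearEquiv.apply_symm_apply, one_mul, one_mul] at h1
  rcases hg with hg | hg
  · left
    rw [hg, map_one, Module.End.one_apply, LinearEquiv.apply_symm_apply] at h1
    exact h1.symm
  · right
    rw [hg, hz, map_neg, LinearEquiv.apply_symm_apply] at h1
    exact h1.symm

theorem pkgXN : PkgXN.{u, v} := by
  intro hNorm hFin G _ _ V _ _ _ ρ R b Q N z x y φ hC hB n hn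
  obtain ⟨hzN, hz1, hzneg, hsq, hcomm, hcen, hmove⟩ := hC.extra
  have lr1 : LR ρ φ (1 : G) 1 1 := by
    intro v; rw [map_one, Module.End.one_apply, one_mul, mul_one]
  have lrz : LR ρ φ z (-1) 1 := by
    intro v; rw [hzneg, map_neg, mul_one, neg_one_mul]
  have lrx : LR ρ φ x qi 1 := by intro v; rw [hC.mx, mul_one]
  have lry : LR ρ φ y qj 1 := by intro v; rw [hC.my, mul_one]
  -- the transported maps
  obtain ⟨T, hT⟩ : ∃ T : H →ₗ[ZMod 3] H, ∀ h, T h = φ (ρ n (φ.symm h)) :=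
    ⟨(φ : V →ₗ[ZMod 3] H) ∘ₗ (ρ n) ∘ₗ (φ.symm : H →ₗ[ZMod 3] V), fun h => rfl⟩
  obtain ⟨T', hT'⟩ : ∃ T' : H →ₗ[ZMod 3] H, ∀ h, T' h = φ (ρ n⁻¹ (φ.symm h)) :=
    ⟨(φ : V →ₗ[ZMod 3] H) ∘ₗ (ρ n⁻¹) ∘ₗ (φ.symm : H →ₗ[ZMod 3] V), fun h => rfl⟩
  have hTT' : ∀ h, T (T' h) = h := by
    intro h
    rw [hT, hT', LinearEquiv.symm_apply_apply, ← Module.End.mul_apply, ← map_mul,
      mul_inv_cancel, map_one, Module.End.one_apply, LinearEquiv.apply_symm_apply]
  have hT'T : ∀ h, T' (T h) = h := by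
    intro h
    rw [hT, hT', LinearEquiv.symm_apply_apply, ← Module.End.mul_apply, ← map_mul,
      inv_mul_cancel, map_one, Module.End.one_apply, LinearEquiv.apply_symm_apply]
  have hp : ∃ p : H, Q8 p ∧ (p = qi ∨ p = -qi) ∧ ∀ h, T (qi * h) = p * T h := by
    have key : ∀ h : H, φ.symm (qi * h) = ρ x (φ.symm h) := by
      intro h
      apply φ.injective
      rw [hC.mx, LinearEquiv.apply_symm_apply, LinearEquiv.apply_symm_apply]
    rcases hcomm n hn x hC.xN with h1 | h1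
    · refine ⟨qi, Or.inr (Or.inr (Or.inl rfl)), Or.inl rfl, fun h => ?_⟩
      rw [hT, hT, key, ← Module.End.mul_apply, ← map_mul, h1, map_mul, Module.End.mul_apply,
        hC.mx]
    · refine ⟨-qi, Or.inr (Or.inr (Or.inr (Or.inl rfl))), Or.inr rfl, fun h => ?_⟩
      rw [hT, hT, key, ← Module.End.mul_apply, ← map_mul, h1, map_mul, map_mul,
        Module.End.mul_apply, Module.End.mul_apply, hzneg, map_neg, hC.mx, neg_mul]
  have hp' : ∃ p : H, Q8 p ∧ (p = qj ∨ p = -qj) ∧ ∀ h, T (qj * h) = p * T h := by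
    have key : ∀ h : H, φ.symm (qj * h) = ρ y (φ.symm h) := by
      intro h
      apply φ.injective
      rw [hC.my, LinearEquiv.apply_symm_apply, LinearEquiv.apply_symm_apply]
    rcases hcomm n hn y hC.yN with h1 | h1
    · refine ⟨qj, Or.inr (Or.inr (Or.inr (Or.inr (Or.inl rfl)))), Or.inl rfl, fun h => ?_⟩
      rw [hT, hT, key, ← Module.End.mul_apply, ← map_mul, h1, map_mul, Module.End.mul_apply,
        hC.my]
    · refine ⟨-qj, Or.inr (Or.inr (Or.inr (Or.inr (Or.inr (Or.inl rfl))))), Or.inr rfl,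
        fun h => ?_⟩
      rw [hT, hT, key, ← Module.End.mul_apply, ← map_mul, h1, map_mul, map_mul,
        Module.End.mul_apply, Module.End.mul_apply, hzneg, map_neg, hC.my, neg_mul]
  obtain ⟨p, hpQ, hpc, hpT⟩ := hp
  obtain ⟨p', hp'Q, hp'c, hp'T⟩ := hp'
  obtain ⟨α, γ, hα, hγ, hTform⟩ := hNorm T T' p p' hTT' hT'T hpQ hp'Q hpT hp'T
  have lrn : LR ρ φ n α γ := by
    intro v
    have h1 := hTform (φ v)
    rw [hT, LinearEquiv.symm_apply_apply] at h1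
    exact h1
  obtain ⟨γ', hγγ', hγ'γ⟩ := hFin.unit γ hγ
  have e1 : α * qi = p * α := by
    have h1 := hpT 1
    rw [hTform, hTform, mul_one, mul_one] at h1
    calc α * qi = (α * qi * γ) * γ' := by rw [mul_assoc (α * qi), hγγ', mul_one]
      _ = p * (α * γ) * γ' := by rw [h1]
      _ = p * α := by rw [mul_assoc, mul_assoc, hγγ', mul_one]
  have e2 : α * qj = p' * α := by
    have h1 := hp'T 1
    rw [hTform, hTform, mul_one, mul_one] at h1
    calc α * qj = (α * qj * γ) * γ' := by rw [mul_assoc (α * qj), hγγ', mul_one]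
      _ = p' * (α * γ) * γ' := by rw [h1]
      _ = p' * α := by rw [mul_assoc, mul_assoc, hγγ', mul_one]
  have hαQ : Q8 α := by
    apply hFin.q8_of_comm α hα
    · rcases hpc with h | h
      · left; rw [e1, h]
      · right; rw [e1, h, neg_mul]
    · rcases hp'c with h | h
      · left; rw [e2, h]
      · right; rw [e2, h, neg_mul]
  -- the element `e` of `N` acting as left multiplication by `α⁻¹`
  have he : ∃ e ∈ N, ∃ α' c : H, LR ρ φ e α' c ∧ α' * α = 1 ∧ c = 1 := by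
    have hxy : x * y ∈ N := N.mul_mem hC.xN hC.yN
    rcases hαQ with h | h | h | h | h | h | h | h
    · exact ⟨1, N.one_mem, 1, 1, lr1, by rw [h, one_mul], rfl⟩
    · exact ⟨z, hzN, -1, 1, lrz, by rw [h, neg_mul_neg, one_mul], rfl⟩
    · exact ⟨z * x, N.mul_mem hzN hC.xN, _, _, xn_lr_mul ρ φ lrz lrx,
        by rw [h, neg_one_mul, neg_mul, xn_qi_sq, neg_neg], by rw [one_mul]⟩
    · exact ⟨x, hC.xN, qi, 1, lrx, by rw [h, mul_neg, xn_qi_sq, neg_neg], rfl⟩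
    · exact ⟨z * y, N.mul_mem hzN hC.yN, _, _, xn_lr_mul ρ φ lrz lry,
        by rw [h, neg_one_mul, neg_mul, xn_qj_sq, neg_neg], by rw [one_mul]⟩
    · exact ⟨y, hC.yN, qj, 1, lry, by rw [h, mul_neg, xn_qj_sq, neg_neg], rfl⟩
    · exact ⟨z * (x * y), N.mul_mem hzN hxy, _, _, xn_lr_mul ρ φ lrz (xn_lr_mul ρ φ lrx lry),
        by rw [h, neg_one_mul, neg_mul, xn_qk_sq, neg_neg], by rw [one_mul, one_mul]⟩
    · exact ⟨x * y, hxy, _, _, xn_lr_mul ρ φ lrx lry,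
        by rw [h, mul_neg, xn_qk_sq, neg_neg], by rw [one_mul]⟩
  obtain ⟨e, heN, α', c, lre, hα'α, hc⟩ := he
  have hn' : e * n ∈ N := N.mul_mem heN hn
  have lr' : LR ρ φ (e * n) 1 γ := by
    have h1 := xn_lr_mul ρ φ lre lrn
    rw [hα'α, hc, mul_one] at h1
    exact h1
  have hsqγ : γ * γ = 1 ∨ γ * γ = -1 := by
    have h1 := xn_lr_mul ρ φ lr' lr'
    rw [one_mul] at h1
    exact xn_lr_val ρ φ z hzneg h1 (hsq _ hn')
  refine ⟨α, γ, hαQ, ?_, lrn⟩
  rcases hsqγ with hγ1 | hγ1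
  · by_cases hγa : γ = 1
    · exact Or.inl hγa
    by_cases hγb : γ = -1
    · exact Or.inr (Or.inl hγb)
    exfalso
    obtain ⟨β₁, β₂, lrb, hβ₁, hβ₂, hβ₂1⟩ := hB
    have hb3 : b * (b * b) = 1 := by
      have := hC.setup.b3
      rw [pow_succ, pow_two, mul_assoc] at this
      exact this
    have hbinv : b⁻¹ = b * b := inv_eq_of_mul_eq_one_right hb3
    have hm : b * (e * n) * b⁻¹ ∈ N := hC.Nnormal.conj_mem _ hn' b
    have lrm : LR ρ φ (b * (e * n) * b⁻¹) 1 (β₂ * β₂ * (γ * β₂)) := by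
      have h1 := xn_lr_mul ρ φ (xn_lr_mul ρ φ lrb lr') (xn_lr_mul ρ φ lrb lrb)
      rw [← hbinv, mul_one, ← mul_assoc β₁ β₁ β₁, hβ₁] at h1
      exact h1
    have hnm : (e * n) * (b * (e * n) * b⁻¹) ∈ N := N.mul_mem hn' hm
    have lrnm : LR ρ φ ((e * n) * (b * (e * n) * b⁻¹)) 1 (β₂ * β₂ * γ * β₂ * γ) := by
      have h1 := xn_lr_mul ρ φ lr' lrm
      rw [one_mul] at h1
      have h2 : β₂ * β₂ * (γ * β₂) * γ = β₂ * β₂ * γ * β₂ * γ := by simp only [mul_assoc]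
      rw [h2] at h1
      exact h1
    have h3 := xn_lr_mul ρ φ lrnm lrnm
    rw [one_mul] at h3
    have h4 := xn_lr_val ρ φ z hzneg h3 (hsq _ hnm)
    have h5 := hFin.mix₁ γ β₂ hγ1 hγa hγb hβ₂ hβ₂1
    rcases h4 with h4 | h4
    · exact h5.1 h4
    · exact h5.2 h4
  · rcases hFin.sq_neg_one γ hγ1 with h | h | h | h | h | h
    · exact Or.inr (Or.inr (Or.inl h))
    · exact Or.inr (Or.inr (Or.inr (Or.inl h)))
    · exact Or.inr (Or.inr (Or.inr (Or.inr (Or.inl h))))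
    · exact Or.inr (Or.inr (Or.inr (Or.inr (Or.inr (Or.inl h)))))
    · exact Or.inr (Or.inr (Or.inr (Or.inr (Or.inr (Or.inr (Or.inl h))))))
    · exact Or.inr (Or.inr (Or.inr (Or.inr (Or.inr (Or.inr (Or.inr h))))))

end Cfsg.Agent.Lib.Helper59.S4415
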